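import Mathlib
import Cfsg.Agent.Lib.LieModel.Fix
import Cfsg.Agent.Lib.LieModel.Tits.Iso
import Cfsg.Agent.Lib.MultC.Tits.Link
import Cfsg.Agent.Lib.MultC.Tits.P3
import Cfsg.Agent.Lib.MultC.Tits.P5

/-! the Tits group has no doubly transitive action -/

set_option autoImplicit false
set_option maxRecDepth 100000
set_option Elab.async false

namespace CfsgLib.LieModel.Tits

open CfsgLib.Comput CfsgLib.MultC MulAction

theorem deg_aux : allLt (fun n => Bool.rec true (Bool.rec (Bool.rec (Nat.beq n 65) true (Nat.beq n 40)) true (Nat.ble n 27))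
    (Nat.beq (Nat.mod 17971200 (Nat.mul n (Nat.pred n))) 0)) 4241 = true := by decide +kernel

theorem deg {n : ℕ} (h : n * (n - 1) ∣ 17971200) : n ≤ 27 ∨ n = 40 ∨ n = 65 := by
  have h1 := Nat.le_of_dvd (by norm_num) h
  have h2 : n < 4241 := by
    by_contra h3
    have := Nat.mul_le_mul (not_lt.1 h3) (Nat.sub_le_sub_right (not_lt.1 h3) 1)
    omega
  have h3 := allLt_sound deg_aux n h2
  have h4 : Nat.beq (Nat.mod 17971200 (Nat.mul n (Nat.pred n))) 0 = true :=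
    Nat.beq_eq ▸ Nat.mod_eq_zero_of_dvd h
  rw [h4] at h3
  cases h5 : Nat.ble n 27 with
  | true => exact Or.inl (Nat.le_of_ble_eq_true h5)
  | false =>
    cases h6 : Nat.beq n 40 with
    | true => exact Or.inr (Or.inl (Nat.eq_of_beq_eq_true h6))
    | false => rw [h5, h6] at h3; exact Or.inr (Or.inr (Nat.eq_of_beq_eq_true h3))

theorem core {G Ω : Type*} [Group G] [MulAction G Ω] [FaithfulSMul G Ω] [Finite Ω] (hG : Nat.card G = 17971200)
    {y z a : G} (hQ : ∃ K : Subgroup G, Finite K ∧ Nat.card K = 27 ∧ ∀ k ∈ K, k = 1 ∨ IsConj y k)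
    (hP : ∃ K : Subgroup G, Finite K ∧ Nat.card K = 25 ∧ ∀ k ∈ K, k = 1 ∨ IsConj z k)
    (hy : y ≠ 1) (hz : z ≠ 1) (ha : a ≠ 1) (y3 : y ^ 3 = 1) (a13 : a ^ 13 = 1) (hn : a * y = y * a ^ 3)
    (hΩ : 3 ≤ Nat.card Ω) : ¬ IsMultiplyPretransitive G Ω 2 := fun h => by
  have hd := two_trans_dvd h (by omega)
  have b : ∀ x : G, x ≠ 1 → Nat.card (fixedBy Ω x) < Nat.card Ω := fun x hx =>
    not_le.1 fun e => hx (eq_one_of_card_fixedBy e)
  rw [hG] at hd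
  rcases deg hd with h1 | h1
  · obtain ⟨K, _, k1, k2⟩ := hQ
    obtain ⟨m, hm, -⟩ := fix_count (Ω := Ω) k2
    have b1 := b y hy
    have b2 := b a ha
    have b3 := card_modEq_fixedBy (Ω := Ω) (by norm_num) a13
    rw [k1] at hm
    have h27 : Nat.card Ω = 27 := by omega
    unfold Nat.ModEq at b3
    rw [h27] at b2 b3
    obtain ⟨x, hx⟩ := exists_fixed_of_norm (Ω := Ω) Nat.prime_three y3 hn (by omega)
    have : Nonempty (fixedBy Ω y) := ⟨⟨x, hx⟩⟩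
    have := Nat.card_pos (α := fixedBy Ω y)
    omega
  · obtain ⟨K, _, k1, k2⟩ := hP
    obtain ⟨m, hm, hc⟩ := fix_count (Ω := Ω) k2
    have : IsPretransitive G Ω := by
      have := isMultiplyPretransitive_of_le (G := G) (α := Ω) (m := 1) (n := 2) (by norm_num) (by omega)
      exact is_one_pretransitive_iff.1 this
    have b1 := hc 5 (le_card_orbit (e := 2) Nat.prime_five k1 (by rw [hG]; rcases h1 with h1 | h1 <;> norm_num [h1]))
    have b2 := b z hz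
    rw [k1] at hm
    omega

/-- the letters -/
noncomputable def FW : List Net := MultC.Tits.P3.X ++ (MultC.Tits.P5.X ++ MultC.Tits.U0)

def y : ℕ := 0x90c090c0c0b0b0a090c090c090a0b
def wsQ : List (ℕ × ℕ × List ℕ) := [(0x0, 0x0, [9, 3, 1]),
  (0x3, 0xa090a090a0b0c0c0909, [10, 4, 2]),
  (0x303, 0xb0b0c09090a0a0b0c0c0c0b, [11, 5, 0]),
  (0x2, 0x9090c0c0c0b0b0a0a, [12, 6, 4]),
  (0x203, 0x90a0b0a090c0c09, [13, 7, 5]),
  (0x20303, 0xa0a0b0c0c0c090a09, [14, 8, 3]),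
  (0x202, 0xb0c0c090a0a0a090c0b0c0b, [15, 0, 7]),
  (0x20203, 0xa0a0b0b0a090a0a0b0c0c, [16, 1, 8]),
  (0x2020303, 0xb0c09090a0a0b0b0a0a09, [17, 2, 6]),
  (0x1, 0x9090c090c090a0b0c0909, [18, 13, 10]),
  (0x103, 0x90c0c09090a0b0b0c, [19, 14, 11]),
  (0x10303, 0xb0c0b0a0b0c0b0c0c0909, [20, 12, 9]),
  (0x102, 0xb0c0b0a0b0b0c0c0c0b, [21, 16, 13]),
  (0x10203, 0x90c090a090a0a09090c09, [22, 17, 14]),
  (0x1020303, 0xc0b0c090a0b0c0b0c, [23, 15, 12]),
  (0x10202, 0x90c090c09090c0c09090a0a, [24, 10, 16]),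
  (0x1020203, 0xc0c090a0a090a090a0b0b0a, [25, 11, 17]),
  (0x102020303, 0xc0b0b0a0b0c0c0b0c0c, [26, 9, 15]),
  (0x101, 0xc090c090c0b0c0c, [0, 23, 19]),
  (0x10103, 0xb0a0a090a090a0b0c0b, [1, 21, 20]),
  (0x1010303, 0xb0c0b0c0c0c0c09, [2, 22, 18]),
  (0x10102, 0xa0a0a0a090a0b0a090c0c, [3, 26, 22]),
  (0x1010203, 0xc0b0c0c0c09090c, [4, 24, 23]),
  (0x101020303, 0xc0b0a0a090a0a090c0b, [5, 25, 21]),
  (0x1010202, 0xa0b0a0b0c0c0b0a0a090c0b, [6, 20, 25]),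
  (0x101020203, 0xc090c0c0b0b0c0c0c090c, [7, 18, 26]),
  (0x10102020303, 0xc090a0b0a0a0a090c0909, [8, 19, 24])]
def wsP : List (ℕ × ℕ × List ℕ) := [(0x0, 0x0, [5, 1]),
  (0x6, 0xc09090a0b0c0b0c0c, [6, 2]),
  (0x606, 0xc0b0b0c090a0b0c0c0b0c, [7, 3]),
  (0x60606, 0xa090a0a0b0c0b0c, [8, 4]),
  (0x6060606, 0xc0c0b0a0a0b0a0b0c0b0c, [9, 0]),
  (0x5, 0x0, [10, 6]),
  (0x506, 0xb0b0c0c090c090a0a0b0b0a, [11, 7]),
  (0x50606, 0xa090a0a0b0c090a0a, [12, 8]),
  (0x5060606, 0xa09090a0a, [13, 9]),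
  (0x506060606, 0xa090a0a0b0a0b0c0b0c, [14, 5]),
  (0x505, 0xa090a090c090c090c0c0b0c, [15, 11]),
  (0x50506, 0xc0c0b0a0a0b0c090a0a, [16, 12]),
  (0x5050606, 0xc0c0b0a0a0b0c0b0c, [17, 13]),
  (0x505060606, 0xa090a090c0c0b0c, [18, 14]),
  (0x50506060606, 0xa090a090c090c0c090a0a, [19, 10]),
  (0x50505, 0xa090a0a0b0a0b0a0b0c0b0c, [20, 16]),
  (0x5050506, 0xa0a090a090c0b0b0a, [21, 17]),
  (0x505050606, 0xc09090a0b0c0b0c09090a0a, [22, 18]),
  (0x50505060606, 0xa090a090c0c090a0a, [23, 19]),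
  (0x5050506060606, 0xc0c0b0b0c0c0c0b0b0c, [24, 15]),
  (0x5050505, 0xc0b0b0c090a0b0b0c090a0a, [0, 21]),
  (0x505050506, 0xc0c0b0a090c0c090a0a, [1, 22]),
  (0x50505050606, 0xa090a09090c0b0a09090a, [2, 23]),
  (0x5050505060606, 0xc0c0b0b0c, [3, 24]),
  (0x505050506060606, 0xc0c0b0a090c090c0c0b0c, [4, 20])]

theorem cQ : classOK (stepT 1755 11 FW) (idTab 1755 11) y [1, 2, 3] wsQ = true := by decide +kernel
theorem cP : classOK (stepT 1755 11 FW) (idTab 1755 11) 5 [5, 6] wsP = true := by decide +kernel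

theorem not_two_trans {Ω : Type*} [Finite Ω] (hΩ : 3 ≤ Nat.card Ω) [MulAction QG Ω] [FaithfulSMul QG Ω] :
    ¬ IsMultiplyPretransitive QG Ω 2 := by
  have hU := MultC.Tits.realU MultC.Tits.real0
  have hW : AllReal QG 1755 (finPt 1755) FW := (hU.words (by norm_num) MultC.Tits.P3.xw).append
    ((hU.words (by norm_num) MultC.Tits.P5.xw).append (MultC.Tits.real0.append MultC.Tits.real0.rev))
  obtain ⟨g, hg⟩ := hW.letters
  have W := MultC.Tits.model.wm hg (k := 11) (by norm_num)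
  have M := MultC.Tits.model.sm hg
  have e1 : evL g _ = evL g _ := W.holds (e := (List.replicate 3 y, [])) (by decide +kernel)
  have e2 : evL g _ = evL g _ := W.holds (e := (List.replicate 13 10, [])) (by decide +kernel)
  have e3 : evL g _ = evL g _ := W.holds (e := ([10, y], y :: List.replicate 3 10)) (by decide +kernel)
  rw [evL_replicate] at e1 e2
  rw [evL_two, evL_cons, evL_replicate] at e3
  exact core card_QG (class_card W M [(0, 6, [1, 2, 3])] rfl cQ (by decide +kernel))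
    (class_card W M [(0, 8, [1, 2])] rfl cP (by decide +kernel))
    (ev_ne_one M [(0, 1, [1])] (by decide +kernel)) (ev_ne_one M [(0, 1, [1])] (by decide +kernel))
    (ev_ne_one M [(0, 1, [1])] (by decide +kernel)) e1 e2 e3 hΩ

end CfsgLib.LieModel.Tits
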